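import Cfsg.Agent.H500.EqQuot
import Cfsg.Agent.S0002
import Cfsg.Agent.Solvable.HallAux
set_option linter.all false

/-!
# Solvable groups in which `p`-subgroups of the same order are conjugate and all Sylow subgroups but
those for one prime are cyclic (S4022)
-/

set_option autoImplicit false

namespace Cfsg.Agent.H500

open Subgroup Cfsg.Agent.H501

/-- Conjugacy of subgroups `H`, `K` with `H M = K M`, `H ∩ M = K ∩ M`, `M` normal commutative. -/
theorem conj_of_sup_eq {G : Type*} [Group G] [Finite G] (M H K : Subgroup G) [hM : M.Normal]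
    [hMc : IsMulCommutative M] (h1 : H ⊔ M = K ⊔ M) (h2 : H ⊓ M = K ⊓ M)
    (h3 : ((H ⊓ M).relIndex H).Coprime (Nat.card M)) (hcard : Nat.card H = Nat.card K) :
    ∃ g : G, K = H.map (MulAut.conj g).toMonoidHom := by
  -- complements
  have key : ∀ H : Subgroup G, ((H ⊓ M).relIndex H).Coprime (Nat.card M) →
      ∃ A : Subgroup G, A ≤ H ∧ A ⊓ M = ⊥ ∧ A ⊔ (H ⊓ M) = H ∧ (Nat.card A).Coprime (Nat.card M) := by
    intro H hH
    have hN : ((H ⊓ M).subgroupOf H).Normal := by
      rw [Subgroup.inf_subgroupOf_left]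
      infer_instance
    have hco : (Nat.card ((H ⊓ M).subgroupOf H)).Coprime ((H ⊓ M).subgroupOf H).index := by
      rw [Nat.card_congr (Subgroup.subgroupOfEquivOfLe inf_le_left).toEquiv]
      exact (hH.coprime_dvd_right (Subgroup.card_dvd_of_le inf_le_right)).symm
    obtain ⟨A0, hA0⟩ := Subgroup.exists_right_complement'_of_coprime hco
    refine ⟨A0.map H.subtype, ?_, ?_, ?_, ?_⟩
    · rintro _ ⟨x, -, rfl⟩; exact x.2
    · rw [eq_bot_iff]
      rintro _ ⟨⟨x, hx, rfl⟩, hxM⟩
      have : x ∈ (H ⊓ M).subgroupOf H ⊓ A0 := ⟨⟨x.2, hxM⟩, hx⟩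
      rw [hA0.disjoint.eq_bot] at this
      rw [mem_bot] at this
      rw [this]; simp
    · have h4 := congrArg (Subgroup.map H.subtype) hA0.symm.sup_eq_top
      rw [Subgroup.map_sup, Subgroup.map_subgroupOf_eq_of_le inf_le_left] at h4
      rw [h4, ← MonoidHom.range_eq_map, Subgroup.range_subtype]
    · rw [Subgroup.card_map_of_injective H.subtype_injective, ← hA0.symm.index_eq_card]
      exact hH
  have h3' : ((K ⊓ M).relIndex K).Coprime (Nat.card M) := by
    have h5 : (K ⊓ M).relIndex K = (H ⊓ M).relIndex H := by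
      have h6 := Subgroup.relIndex_mul_relIndex ⊥ (K ⊓ M) K bot_le inf_le_left
      have h7 := Subgroup.relIndex_mul_relIndex ⊥ (H ⊓ M) H bot_le inf_le_left
      rw [Subgroup.relIndex_bot_left, Subgroup.relIndex_bot_left] at h6 h7
      rw [← hcard, ← h7, ← h2] at h6
      rw [← h2]
      exact Nat.eq_of_mul_eq_mul_left Nat.card_pos h6
    rw [h5]; exact h3
  obtain ⟨A, hAH, hAM, hAs, hAc⟩ := key H h3
  obtain ⟨B, hBK, hBM, hBs, -⟩ := key K h3'
  set L : Subgroup G := H ⊔ M with hL
  have hML : M ≤ L := le_sup_right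
  have hAL : A ≤ L := hAH.trans le_sup_left
  have hBL : B ≤ L := by rw [h1]; exact hBK.trans le_sup_left
  have hAML : A ⊔ M = L := by
    rw [hL]
    apply le_antisymm (sup_le_sup_right hAH M)
    refine sup_le ?_ le_sup_right
    rw [← hAs]
    exact sup_le le_sup_left (inf_le_right.trans le_sup_right)
  have hBML : B ⊔ M = L := by
    rw [h1]
    apply le_antisymm (sup_le_sup_right hBK M)
    refine sup_le ?_ le_sup_right
    conv_lhs => rw [← hBs]
    exact sup_le le_sup_left (inf_le_right.trans le_sup_right)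
  have hcompl : ∀ A : Subgroup G, A ≤ L → A ⊓ M = ⊥ → A ⊔ M = L →
      Subgroup.IsComplement' (M.subgroupOf L) (A.subgroupOf L) := by
    intro A hAL hAM hAML
    apply Subgroup.isComplement'_of_disjoint_and_mul_eq_univ
    · rw [Subgroup.disjoint_def]
      intro x hx1 hx2
      have : (x : G) ∈ A ⊓ M := ⟨hx2, hx1⟩
      rw [hAM, mem_bot] at this
      exact Subtype.ext this
    · rw [Set.eq_univ_iff_forall]
      rintro ⟨x, hx⟩
      have hx' : x ∈ M ⊔ A := by rw [sup_comm, hAML]; exact hx
      rw [← SetLike.mem_coe, Subgroup.normal_mul M A] at hx'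
      obtain ⟨m, hm, a, ha, rfl⟩ := hx'
      exact ⟨⟨m, hML hm⟩, hm, ⟨a, hAL ha⟩, ha, rfl⟩
  have hcA := hcompl A hAL hAM hAML
  have hcB := hcompl B hBL hBM hBML
  have hcomm : IsMulCommutative (M.subgroupOf L) := by
    constructor; constructor
    rintro ⟨a, ha⟩ ⟨b, hb⟩
    apply Subtype.ext; apply Subtype.ext
    have := hMc.is_comm.comm ⟨a, ha⟩ ⟨b, hb⟩
    exact congrArg (fun z : M => (z : G)) this
  have hidx : (Nat.card (M.subgroupOf L)).Coprime (M.subgroupOf L).index := by
    rw [hcA.symm.index_eq_card, Nat.card_congr (Subgroup.subgroupOfEquivOfLe hAL).toEquiv,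
      Nat.card_congr (Subgroup.subgroupOfEquivOfLe hML).toEquiv]
    exact hAc.symm
  obtain ⟨a, ha, haAB⟩ := S0002.result (M.subgroupOf L) hidx _ _ hcA hcB
  have haM : (a : G) ∈ M := ha
  refine ⟨a, ?_⟩
  have hAB : A.map (MulAut.conj (a : G)).toMonoidHom = B := by
    have h4 := congrArg (Subgroup.map L.subtype) haAB
    rw [Subgroup.map_subgroupOf_eq_of_le hBL] at h4
    rw [← h4]
    ext x
    constructor
    · rintro ⟨y, hy, rfl⟩
      exact ⟨MulAut.conj a ⟨y, hAL hy⟩,
        Subgroup.smul_mem_pointwise_smul _ (MulAut.conj a) _ (show (⟨y, hAL hy⟩ : L) ∈ A.subgroupOf L from hy), rfl⟩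
    · rintro ⟨y, hy, rfl⟩
      obtain ⟨z, hz, rfl⟩ := hy
      exact ⟨z, hz, rfl⟩
  have hfix : (H ⊓ M).map (MulAut.conj (a : G)).toMonoidHom = H ⊓ M := by
    have h5 : ∀ x ∈ M, MulAut.conj (a : G) x = x := by
      intro x hx
      have := congrArg Subtype.val (hMc.is_comm.comm ⟨a, haM⟩ ⟨x, hx⟩)
      rw [MulAut.conj_apply]
      change (a : G) * x = x * a at this
      rw [this, mul_inv_cancel_right]
    ext x
    constructor
    · rintro ⟨y, hy, rfl⟩
      change MulAut.conj (a : G) y ∈ _
      rw [h5 y hy.2]; exact hy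
    · intro hx
      exact ⟨x, hx, h5 x hx.2⟩
  rw [← hAs, Subgroup.map_sup, hAB, hfix, h2, hBs]

/-- Order of the image of a subgroup in a quotient. -/
theorem card_map_mul {G : Type*} [Group G] [Finite G] (M H : Subgroup G) [M.Normal] :
    Nat.card (H ⊓ M : Subgroup G) * Nat.card (H.map (QuotientGroup.mk' M)) = Nat.card H := by
  have h1 : M.relIndex H = Nat.card (H.map (QuotientGroup.mk' M)) := by
    have := Subgroup.relIndex_ker H (QuotientGroup.mk' M)
    rwa [QuotientGroup.ker_mk'] at this
  have h2 := Subgroup.relIndex_mul_relIndex ⊥ (H ⊓ M) H bot_le inf_le_left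
  rw [Subgroup.relIndex_bot_left, Subgroup.relIndex_bot_left, Subgroup.inf_relIndex_left, h1] at h2
  exact h2

/-- Conjugacy in a quotient. -/
theorem exists_conj_sup {G : Type*} [Group G] (M H K : Subgroup G) [M.Normal] (g : G)
    (h : K.map (QuotientGroup.mk' M) =
      (H.map (QuotientGroup.mk' M)).map (MulAut.conj (QuotientGroup.mk' M g)).toMonoidHom) :
    H.map (MulAut.conj g).toMonoidHom ⊔ M = K ⊔ M := by
  have h1 : (H.map (MulAut.conj g).toMonoidHom).map (QuotientGroup.mk' M) = K.map (QuotientGroup.mk' M) := by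
    rw [h, Subgroup.map_map, Subgroup.map_map]
    congr 1
  have h2 := congrArg (Subgroup.comap (QuotientGroup.mk' M)) h1
  rwa [Subgroup.comap_map_eq, Subgroup.comap_map_eq, QuotientGroup.ker_mk'] at h2

/-- An intersection with a normal subgroup and conjugation. -/
theorem map_conj_inf {G : Type*} [Group G] (M H : Subgroup G) [hM : M.Normal] (g : G) :
    H.map (MulAut.conj g).toMonoidHom ⊓ M = (H ⊓ M).map (MulAut.conj g).toMonoidHom := by
  ext x
  constructor
  · rintro ⟨⟨y, hy, rfl⟩, hx⟩
    refine ⟨y, ⟨hy, ?_⟩, rfl⟩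
    have h1 := hM.conj_mem _ hx g⁻¹
    have h2 : g⁻¹ * (MulAut.conj g).toMonoidHom y * g⁻¹⁻¹ = y := by
      simp [mul_assoc]
    rwa [h2] at h1
  · rintro ⟨y, ⟨hy, hyM⟩, rfl⟩
    exact ⟨⟨y, hy, rfl⟩, hM.conj_mem y hyM g⟩

universe u

/-- The conjugacy theorem, by induction on the order. -/
theorem conj_of_card_aux (n : ℕ) : ∀ {G : Type u} [Group G] [Finite G], Nat.card G = n → Group.IsSolvable G →
    (∀ p : ℕ, p.Prime → EqConj p G) → ∀ r : ℕ,
    (∀ p : ℕ, p.Prime → p ≠ r → ∀ P : Subgroup G, IsPGroup p P → IsCyclic P) →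
    ∀ H K : Subgroup G, Nat.card H = Nat.card K → ∃ g : G, K = H.map (MulAut.conj g).toMonoidHom := by
  induction n using Nat.strong_induction_on with
  | _ n ih =>
  intro G _ _ hn hs hC r hcyc H K hHK
  rcases subsingleton_or_nontrivial G with hsub | hnt
  · exact ⟨1, Subsingleton.elim _ _⟩
  obtain ⟨q, M, hq, hMn, hM1, hMc, hMe⟩ := Solvable.HallAux.exists_normal_elementary (G := G)
  have hqf : Fact q.Prime := ⟨hq⟩
  have hMq : IsPGroup q M := by
    intro x
    exact ⟨1, by rw [pow_one]; exact Subtype.ext (hMe x x.2)⟩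
  obtain ⟨k, hk⟩ := IsPGroup.iff_card.mp hMq
  have hk0 : k ≠ 0 := by
    rintro rfl
    rw [pow_zero] at hk
    exact hM1 (Subgroup.card_eq_one.mp hk)
  have hqM : q ∣ Nat.card M := hk ▸ dvd_pow_self q hk0
  have hmem : ∀ x : G, x ^ q = 1 → x ∈ M := (hC q hq).mem_of_normal M hqM
  have hQlt : Nat.card (G ⧸ M) < n := by
    rw [← hn, ← M.card_mul_index, M.index_eq_card]
    have h1 : 0 < Nat.card (G ⧸ M) := Nat.card_pos
    have h2 : 1 < Nat.card M := by
      rw [Subgroup.one_lt_card_iff_ne_bot]; exact hM1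
    nlinarith
  have hQs : Group.IsSolvable (G ⧸ M) := inferInstance
  have hQC : ∀ p : ℕ, p.Prime → EqConj p (G ⧸ M) := by
    intro p hp
    have : Fact p.Prime := ⟨hp⟩
    exact EqConj.of_surjective (hC p hp) (QuotientGroup.mk' M) (QuotientGroup.mk'_surjective M)
  have hQcyc : ∀ p : ℕ, p.Prime → p ≠ r → ∀ P : Subgroup (G ⧸ M), IsPGroup p P → IsCyclic P := by
    intro p hp hpr
    have : Fact p.Prime := ⟨hp⟩
    exact cyclic_of_surjective (hcyc p hp hpr) (QuotientGroup.mk' M) (QuotientGroup.mk'_surjective M)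
  by_cases hcard : Nat.card M = q
  · by_cases hqH : q ∣ Nat.card H
    · -- both contain `M`
      have hle : ∀ L : Subgroup G, q ∣ Nat.card L → M ≤ L := by
        intro L hL
        obtain ⟨⟨y, hy⟩, hyo⟩ := exists_prime_orderOf_dvd_card' q hL
        have hyo' : orderOf y = q := by rw [← hyo]; exact (orderOf_mk y hy).symm
        have h1 : zpowers y = M := by
          apply eq_of_le_of_card_ge
          · rw [zpowers_le]
            exact hmem y (hyo' ▸ pow_orderOf_eq_one y)
          · rw [hcard, Nat.card_zpowers, hyo']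
        rw [← h1, zpowers_le]
        exact hy
      have hMH := hle H hqH
      have hMK := hle K (hHK ▸ hqH)
      have e1 := card_map_mul M H
      have e2 := card_map_mul M K
      rw [inf_eq_right.mpr hMH] at e1
      rw [inf_eq_right.mpr hMK, ← hHK, ← e1] at e2
      have e3 := Nat.eq_of_mul_eq_mul_left Nat.card_pos e2
      obtain ⟨g, hg⟩ := ih _ hQlt rfl hQs hQC r hQcyc _ _ e3.symm
      obtain ⟨g, rfl⟩ := QuotientGroup.mk'_surjective M g
      have h1 := exists_conj_sup M H K g hg
      rw [sup_eq_left.mpr hMK] at h1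
      refine ⟨g, ?_⟩
      rw [← h1, sup_eq_left]
      intro x hx
      refine ⟨g⁻¹ * x * g, hMH ?_, by simp [mul_assoc]⟩
      have := hMn.conj_mem x hx g⁻¹
      rwa [inv_inv] at this
    · have hbot : ∀ L : Subgroup G, ¬ q ∣ Nat.card L → L ⊓ M = ⊥ := by
        intro L hL
        rw [← disjoint_iff]
        apply Subgroup.disjoint_of_coprime_natCard
        rw [hcard]
        exact ((Nat.Prime.coprime_iff_not_dvd hq).mpr hL).symm
      have hbH := hbot H hqH
      have hbK := hbot K (hHK ▸ hqH)
      have e1 := card_map_mul M H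
      have e2 := card_map_mul M K
      rw [hbH, Subgroup.card_bot, one_mul] at e1
      rw [hbK, Subgroup.card_bot, one_mul] at e2
      obtain ⟨g, hg⟩ := ih _ hQlt rfl hQs hQC r hQcyc (H.map (QuotientGroup.mk' M))
        (K.map (QuotientGroup.mk' M)) (by rw [e1, e2, hHK])
      obtain ⟨g, rfl⟩ := QuotientGroup.mk'_surjective M g
      have h1 := exists_conj_sup M H K g hg
      have hcH' : Nat.card (H.map (MulAut.conj g).toMonoidHom) = Nat.card H :=
        Subgroup.card_map_of_injective (MulAut.conj g).injective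
      have hbH' := hbot (H.map (MulAut.conj g).toMonoidHom) (by rw [hcH']; exact hqH)
      obtain ⟨g', hg'⟩ := conj_of_sup_eq M (H.map (MulAut.conj g).toMonoidHom) K h1 (by rw [hbH', hbK])
        (by
          rw [hbH', Subgroup.relIndex_bot_left, hcH', hcard]
          exact ((Nat.Prime.coprime_iff_not_dvd hq).mpr hqH).symm) (by rw [hcH', hHK])
      refine ⟨g' * g, ?_⟩
      rw [hg', Subgroup.map_map]
      congr 1
      ext x
      simp
  · -- `M` is a Sylow subgroup
    have hMnc : ¬ IsCyclic M := by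
      intro hcy
      obtain ⟨x, hx⟩ := hcy.exists_ofOrder_eq_natCard
      have h1 : orderOf x ∣ q := orderOf_dvd_of_pow_eq_one (Subtype.ext (hMe x x.2))
      rw [hx] at h1
      rcases (Nat.dvd_prime hq).mp h1 with h2 | h2
      · exact hM1 (Subgroup.card_eq_one.mp h2)
      · exact hcard h2
    have hqr : q = r := by
      by_contra hne
      exact hMnc (hcyc q hq hne M hMq)
    obtain ⟨R, hR⟩ := hMq.exists_le_sylow
    have hRM : (R : Subgroup G) ≤ M := by
      rcases (hC q hq).types (R : Subgroup G) R.isPGroup' with h | h | ⟨h2, ⟨e⟩⟩ | ⟨h1, h2, h3, h4⟩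
      · exfalso
        apply hMnc
        exact isCyclic_of_injective (Subgroup.inclusion hR) (Subgroup.inclusion_injective hR)
      · intro x hx
        exact hmem x (h.2 x hx)
      · exfalso
        subst h2
        have h5 : ∀ x : QuaternionGroup 2, x ^ 2 = 1 → x = 1 ∨ x = QuaternionGroup.a 2 := by decide
        let f : M → ({1, QuaternionGroup.a 2} : Finset (QuaternionGroup 2)) := fun x =>
          ⟨e (Subgroup.inclusion hR x), by
            have h6 : (e (Subgroup.inclusion hR x)) ^ 2 = 1 := by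
              rw [← map_pow, ← map_pow, show x ^ 2 = 1 from Subtype.ext (hMe x x.2), map_one, map_one]
            simpa using h5 _ h6⟩
        have hf : Function.Injective f := by
          intro x y hxy
          exact Subgroup.inclusion_injective hR (e.injective (congrArg Subtype.val hxy))
        have h7 := Nat.card_le_card_of_injective f hf
        have h8 : Nat.card ({1, QuaternionGroup.a 2} : Finset (QuaternionGroup 2)) ≤ 2 := by
          rw [Nat.card_eq_fintype_card, Fintype.card_coe]
          exact Finset.card_le_two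
        have h9 : 0 < Nat.card M := Nat.card_pos
        omega
      · intro x hx
        apply hmem
        have := Monoid.pow_exponent_eq_one (⟨x, hx⟩ : (R : Subgroup G))
        rw [h4] at this
        exact congrArg Subtype.val this
    have hMR : M = (R : Subgroup G) := le_antisymm hR hRM
    have hidx : ¬ q ∣ M.index := by rw [hMR]; exact R.not_dvd_index
    have hcop : ∀ L : Subgroup G, (M.relIndex L).Coprime q := by
      intro L
      have h1 : M.relIndex L ∣ M.index := Subgroup.relIndex_dvd_index_of_normal M L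
      exact ((Nat.Prime.coprime_iff_not_dvd hq).mpr (fun h => hidx (h.trans h1))).symm
    have hrel : ∀ L : Subgroup G, Nat.card (L ⊓ M : Subgroup G) * M.relIndex L = Nat.card L := by
      intro L
      have h2 := Subgroup.relIndex_mul_relIndex ⊥ (L ⊓ M) L bot_le inf_le_left
      rwa [Subgroup.relIndex_bot_left, Subgroup.relIndex_bot_left, Subgroup.inf_relIndex_left] at h2
    have hfac : ∀ L : Subgroup G, Nat.card (L ⊓ M : Subgroup G) = q ^ (Nat.card L).factorization q := by
      intro L
      obtain ⟨j, hj⟩ := IsPGroup.iff_card.mp (hMq.to_le (inf_le_right : L ⊓ M ≤ M))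
      have h1 := hrel L
      rw [hj] at h1
      have h2 : M.relIndex L ≠ 0 := by
        intro h
        have := hcop L
        rw [h, Nat.coprime_zero_left] at this
        exact hq.one_lt.ne this.symm
      have h3 : (Nat.card L).factorization q = j := by
        rw [← h1, Nat.factorization_mul (pow_ne_zero _ hq.ne_zero) h2, Finsupp.add_apply,
          hq.factorization_pow, Finsupp.single_eq_same,
          Nat.factorization_eq_zero_of_not_dvd ((Nat.Prime.coprime_iff_not_dvd hq).mp (hcop L).symm), add_zero]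
      rw [h3, hj]
    -- make the intersections equal
    obtain ⟨g₁, hg₁⟩ := hC q hq (H ⊓ M) (K ⊓ M) (hMq.to_le inf_le_right) (hMq.to_le inf_le_right)
      (by rw [hfac, hfac, hHK])
    set H₁ := H.map (MulAut.conj g₁).toMonoidHom with hH₁
    have hcH₁ : Nat.card H₁ = Nat.card H := Subgroup.card_map_of_injective (MulAut.conj g₁).injective
    have hS : H₁ ⊓ M = K ⊓ M := by rw [hH₁, map_conj_inf, hg₁]
    set S := K ⊓ M with hSdef
    set N : Subgroup G := normalizer (S : Set G) with hN
    have hle : ∀ L : Subgroup G, L ⊓ M = S → L ≤ N := by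
      intro L hL x hx
      rw [hN, ← hL, mem_normalizer_iff]
      have h1 : ∀ x ∈ L, ∀ y ∈ L ⊓ M, x * y * x⁻¹ ∈ L ⊓ M := fun x hx y hy =>
        ⟨L.mul_mem (L.mul_mem hx hy.1) (L.inv_mem hx), hMn.conj_mem y hy.2 x⟩
      intro y
      refine ⟨h1 x hx y, fun h => ?_⟩
      have h2 := h1 x⁻¹ (inv_mem hx) _ h
      have h3 : x⁻¹ * (x * y * x⁻¹) * x⁻¹⁻¹ = y := by group
      rwa [h3] at h2
    have hH₁N := hle H₁ hS
    have hKN := hle K rfl
    -- the quotient
    set π := QuotientGroup.mk' M with hπ
    have hallcyc : ∀ p : ℕ, p.Prime → ∀ P : Subgroup (G ⧸ M), IsPGroup p P → IsCyclic P := by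
      intro p hp P hP
      by_cases hpr : p = r
      · subst hpr
        have : Fact p.Prime := ⟨hp⟩
        obtain ⟨j, hj⟩ := IsPGroup.iff_card.mp hP
        have h1 : Nat.card P ∣ M.index := by
          rw [M.index_eq_card]; exact Subgroup.card_subgroup_dvd_card P
        have hj0 : j = 0 := by
          by_contra hne
          apply hidx
          rw [hqr]
          exact (dvd_pow_self p hne).trans (hj ▸ h1)
        rw [hj0, pow_zero] at hj
        have : Subsingleton P := (Nat.card_eq_one_iff_unique.mp hj).1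
        infer_instance
      · exact hQcyc p hp hpr P hP
    have e1 : Nat.card (H₁.map π) = Nat.card (K.map π) := by
      have e2 := card_map_mul M H₁
      have e3 := card_map_mul M K
      rw [hS, hcH₁, hHK, ← e3] at e2
      exact Nat.eq_of_mul_eq_mul_left Nat.card_pos e2
    have hHN' : H₁.map π ≤ N.map π := Subgroup.map_mono hH₁N
    have hKN' : K.map π ≤ N.map π := Subgroup.map_mono hKN
    obtain ⟨⟨g, hgN⟩, hg⟩ := ih (Nat.card (N.map π)) (lt_of_le_of_lt (Subgroup.card_le_card_group _) hQlt)
      (G := N.map π) rfl inferInstance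
      (fun p hp => by
        have : Fact p.Prime := ⟨hp⟩
        exact EqConj.of_cyclic (cyclic_of_injective (hallcyc p hp) (N.map π).subtype (N.map π).subtype_injective))
      r (fun p hp _ => cyclic_of_injective (hallcyc p hp) (N.map π).subtype (N.map π).subtype_injective)
      ((H₁.map π).subgroupOf (N.map π)) ((K.map π).subgroupOf (N.map π)) (by
        rw [Nat.card_congr (Subgroup.subgroupOfEquivOfLe hHN').toEquiv,
          Nat.card_congr (Subgroup.subgroupOfEquivOfLe hKN').toEquiv, e1])
    obtain ⟨m, hm, rfl⟩ := hgN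
    have h1 : K.map π = (H₁.map π).map (MulAut.conj (π m)).toMonoidHom := by
      have h2 := congrArg (Subgroup.map (N.map π).subtype) hg
      rw [Subgroup.map_subgroupOf_eq_of_le hKN'] at h2
      rw [h2]
      ext x
      constructor
      · rintro ⟨_, ⟨y, hy, rfl⟩, rfl⟩
        exact ⟨y, hy, rfl⟩
      · rintro ⟨y, hy, rfl⟩
        exact ⟨_, ⟨⟨y, hHN' hy⟩, hy, rfl⟩, rfl⟩
    have h2 := exists_conj_sup M H₁ K m h1
    have hcH₂ : Nat.card (H₁.map (MulAut.conj m).toMonoidHom) = Nat.card H₁ :=
      Subgroup.card_map_of_injective (MulAut.conj m).injective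
    have hS₂ : H₁.map (MulAut.conj m).toMonoidHom ⊓ M = K ⊓ M := by
      rw [map_conj_inf, hS]
      ext x
      constructor
      · rintro ⟨y, hy, rfl⟩
        exact (mem_normalizer_iff.mp hm y).mp hy
      · intro hx
        refine ⟨m⁻¹ * x * m, ?_, by simp [mul_assoc]⟩
        have h3 := (mem_normalizer_iff.mp (inv_mem hm) x).mp hx
        rwa [inv_inv] at h3
    obtain ⟨g', hg'⟩ := conj_of_sup_eq M _ K h2 hS₂ (by
      rw [Subgroup.inf_relIndex_left, hk]
      exact (hcop _).pow_right k) (by rw [hcH₂, hcH₁, hHK])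
    refine ⟨g' * m * g₁, ?_⟩
    rw [hg', hH₁, Subgroup.map_map, Subgroup.map_map]
    congr 1
    ext x
    simp

end Cfsg.Agent.H500
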